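import Cfsg.Agent.H138.RC.Base
import Cfsg.Agent.H236.RC.FA3

/-!
# S3510, row F: replacing a member of a cover (`CV.update`), and the three-dimensional box `B3`

`CV.box_B3`: `p` odd; the `p`-element acts on a nondegenerate 3-space `⟨e, f, b⟩` as a Siegel element and
the other members act as scalars on it. All dimensions `≥ 7`.
-/

set_option autoImplicit false
open Cfsg

namespace Cfsg.Agent.H93.RC

open QuadraticMap MulAction
open Cfsg.Agent.LieClassical.OrthCore Cfsg.Agent.LieClassical.OrthTrans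
open Cfsg.Agent.LieClassical.OrthSimple Cfsg.Agent.ClassicalGeometry.OrthSemi
open Cfsg.Agent.ClassicalGeometry.OrthAut1 Cfsg.Agent.H106.RC Cfsg.Agent.H138.RC

variable {F V G Ω : Type} [Field F] [AddCommGroup V] [Module F V] [Group G] [MulAction G Ω]
  {Q : QuadraticForm F V} {N : Subgroup G} {ρ : ↥(E Q) →* G} {p : ℕ} {ι : Type} {x : ι → G}
  {M : ι → Gam Q} {X : ι → V ≃ₗ[F] V} {c : ι → F} {r : ι → ℕ}

/-- replacing the member `i₀` of a cover by an element of the group generated by its conjugates under the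
centraliser of the other members -/
theorem cv_update [DecidableEq ι] (h : CV Q Ω N ρ p x M X c r) (i₀ : ι) {y : G} {M' : Gam Q}
    {X' : V ≃ₗ[F] V} {s : ℕ} (hs : s.Prime) (hys : y ^ s = 1) (hy1 : y ≠ 1)
    (hcl : y ∈ Subgroup.closure {z | ∃ g : G, (∀ j, j ≠ i₀ → g * x j = x j * g) ∧ z = g * x i₀ * g⁻¹})
    (hlf : Lf ρ y M') (hlin : ∀ v, M'.1 v = X' v) (hO : ∀ v, Q (X' v) = Q v)
    (hcX : ∀ j, j ≠ i₀ → X' * X j = X j * X') :
    CV Q Ω N ρ p (Function.update x i₀ y) (Function.update M i₀ M') (Function.update X i₀ X')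
      (Function.update c i₀ 1) (Function.update r i₀ s) := by
  have hyc : ∀ j, j ≠ i₀ → y * x j = x j * y := by
    intro j hj
    have h1 : Subgroup.closure {z | ∃ g : G, (∀ j, j ≠ i₀ → g * x j = x j * g) ∧ z = g * x i₀ * g⁻¹} ≤
        Subgroup.centralizer {x j} := by
      rw [Subgroup.closure_le]
      rintro _ ⟨g, hg, rfl⟩
      have hgj : Commute g (x j) := hg j hj
      have hij : Commute (x i₀) (x j) := h.comm i₀ j
      show g * x i₀ * g⁻¹ ∈ Subgroup.centralizer {x j}
      rw [Subgroup.mem_centralizer_singleton_iff]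
      exact ((hgj.mul_left hij).mul_left hgj.inv_left).eq
    exact Subgroup.mem_centralizer_singleton_iff.1 (h1 hcl)
  refine ⟨h.good, h.env, h.rep, h.lr, h.ih, ?_, ?_, ?_, ?_, h.cov.mv i₀ hcl, ?_, ?_, ?_, ?_⟩
  · intro i
    by_cases hi : i = i₀
    · subst hi; rwa [Function.update_self]
    · rw [Function.update_of_ne hi]; exact h.prime i
  · intro i
    by_cases hi : i = i₀
    · subst hi; rwa [Function.update_self, Function.update_self]
    · rw [Function.update_of_ne hi, Function.update_of_ne hi]; exact h.pow i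
  · intro i
    by_cases hi : i = i₀
    · subst hi; rwa [Function.update_self]
    · rw [Function.update_of_ne hi]; exact h.ne i
  · intro i j
    by_cases hi : i = i₀
    · subst hi
      by_cases hj : j = i
      · subst hj; rfl
      · rw [Function.update_self, Function.update_of_ne hj]; exact hyc j hj
    · by_cases hj : j = i₀
      · subst hj
        rw [Function.update_self, Function.update_of_ne hi]; exact (hyc i hi).symm
      · rw [Function.update_of_ne hi, Function.update_of_ne hj]; exact h.comm i j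
  · intro i
    by_cases hi : i = i₀
    · subst hi; rwa [Function.update_self, Function.update_self]
    · rw [Function.update_of_ne hi, Function.update_of_ne hi]; exact h.lf i
  · intro i v
    by_cases hi : i = i₀
    · subst hi; rw [Function.update_self, Function.update_self]; exact hlin v
    · rw [Function.update_of_ne hi, Function.update_of_ne hi]; exact h.lin i v
  · intro i v
    by_cases hi : i = i₀
    · subst hi; rw [Function.update_self, Function.update_self, one_mul]; exact hO v
    · rw [Function.update_of_ne hi, Function.update_of_ne hi]; exact h.sim i v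
  · intro i j
    by_cases hi : i = i₀
    · subst hi
      by_cases hj : j = i
      · subst hj; rfl
      · rw [Function.update_self, Function.update_of_ne hj]; exact hcX j hj
    · by_cases hj : j = i₀
      · subst hj
        rw [Function.update_self, Function.update_of_ne hi]; exact (hcX i hi).symm
      · rw [Function.update_of_ne hi, Function.update_of_ne hj]; exact h.commX i j

/-- an element of `E Q` commuting with the linear lift of `x` commutes with `x` -/
theorem comm_of_lin {y : G} {L : Gam Q} {Y : V ≃ₗ[F] V} (hl : Lf ρ y L)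
    (hY : ∀ v, L.1 v = Y v) {g : V ≃ₗ[F] V} (hg : g ∈ E Q) (hgY : g * Y = Y * g) :
    ρ ⟨g, hg⟩ * y = y * ρ ⟨g, hg⟩ := by
  have h1 := hl ⟨g, hg⟩
  have h2 : conjE Q L ⟨g, hg⟩ = ⟨g, hg⟩ := by
    apply Subtype.ext
    rw [coe_conjE]
    ext v
    obtain ⟨v, rfl⟩ := L.1.surjective v
    rw [conjLin_apply', hY, hY]
    exact (congrArg (fun f : V ≃ₗ[F] V => f v) hgY).symm
  rw [h2] at h1
  exact (mul_inv_eq_iff_eq_mul.1 h1).symm

section three

variable {e f b : V}

/-- the Weyl element of the 3-space -/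
noncomputable def wl (Q : QuadraticForm F V) (e f b : V) (h : Hyp Q e f) (heb : polar Q e b = 0)
    (hfb : polar Q f b = 0) : V ≃ₗ[F] V :=
  siegel Q e b h.left heb *
    siegel Q f ((Q b)⁻¹ • b) h.right (by rw [polar_smul_right, hfb, smul_zero]) * siegel Q e b h.left heb

variable (h : Hyp Q e f) (heb : polar Q e b = 0) (hfb : polar Q f b = 0)

theorem wl_mem : wl Q e f b h heb hfb ∈ E Q :=
  Subgroup.mul_mem _ (Subgroup.mul_mem _ (siegel_mem_E _ _) (siegel_mem_E _ _)) (siegel_mem_E _ _)

theorem wl_apply (v : V) : wl Q e f b h heb hfb v =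
    siegelLin Q e b (siegelLin Q f ((Q b)⁻¹ • b) (siegelLin Q e b v)) := rfl

theorem wl_e (hb : Q b ≠ 0) : wl Q e f b h heb hfb e = -((Q b)⁻¹ • f) := by
  have he := h.left
  have hf := h.right
  have h1 : polar Q e e = 0 := polar_self_of_sing he
  have h2 : polar Q f f = 0 := polar_self_of_sing hf
  have h3 : polar Q e f = 1 := h.pair
  have h4 : polar Q f e = 1 := h.symm.pair
  have h5 : polar Q b e = 0 := by rw [polar_comm, heb]
  have h6 : polar Q b f = 0 := by rw [polar_comm, hfb]
  have h7 : polar Q b b = 2 * Q b := by rw [polar_self, two_smul, two_mul]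
  rw [wl_apply]
  simp only [siegelLin_apply, polar_add_right, polar_sub_right, polar_smul_right, polar_smul_left,
    QuadraticMap.map_smul, h1, h3, h4, h5, h6, h7, heb, hfb, smul_eq_mul]
  match_scalars <;> field_simp <;> ring

theorem wl_f (hb : Q b ≠ 0) : wl Q e f b h heb hfb f = -(Q b • e) := by
  have he := h.left
  have hf := h.right
  have h1 : polar Q e e = 0 := polar_self_of_sing he
  have h2 : polar Q f f = 0 := polar_self_of_sing hf
  have h3 : polar Q e f = 1 := h.pair
  have h4 : polar Q f e = 1 := h.symm.pair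
  have h5 : polar Q b e = 0 := by rw [polar_comm, heb]
  have h6 : polar Q b f = 0 := by rw [polar_comm, hfb]
  have h7 : polar Q b b = 2 * Q b := by rw [polar_self, two_smul, two_mul]
  rw [wl_apply]
  simp only [siegelLin_apply, polar_add_right, polar_sub_right, polar_smul_right, polar_smul_left,
    QuadraticMap.map_smul, h1, h2, h3, h4, h5, h6, h7, heb, hfb, smul_eq_mul]
  match_scalars <;> field_simp <;> ring

theorem wl_b (hb : Q b ≠ 0) : wl Q e f b h heb hfb b = -b := by
  have he := h.left
  have hf := h.right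
  have h1 : polar Q e e = 0 := polar_self_of_sing he
  have h2 : polar Q f f = 0 := polar_self_of_sing hf
  have h3 : polar Q e f = 1 := h.pair
  have h4 : polar Q f e = 1 := h.symm.pair
  have h5 : polar Q b e = 0 := by rw [polar_comm, heb]
  have h6 : polar Q b f = 0 := by rw [polar_comm, hfb]
  have h7 : polar Q b b = 2 * Q b := by rw [polar_self, two_smul, two_mul]
  rw [wl_apply]
  simp only [siegelLin_apply, polar_add_right, polar_sub_right, polar_smul_right, polar_smul_left,
    QuadraticMap.map_smul, h1, h3, h4, h5, h6, h7, heb, hfb, smul_eq_mul]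
  match_scalars <;> field_simp <;> ring

theorem wl_perp {v : V} (h1 : polar Q e v = 0) (h2 : polar Q f v = 0) (h3 : polar Q b v = 0) :
    wl Q e f b h heb hfb v = v := by
  have h4 : siegelLin Q e b v = v := by rw [siegelLin_apply, h1, h3]; simp
  have h5 : siegelLin Q f ((Q b)⁻¹ • b) v = v := by rw [siegelLin_apply, h2, polar_smul_left, h3]; simp
  rw [wl_apply, h4, h5, h4]

include h heb hfb in
/-- decomposition along the 3-space -/
theorem exists_dec (h2 : (2 : F) ≠ 0) (hb : Q b ≠ 0) (v : V) :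
    ∃ (a₁ a₂ a₃ : F) (v' : V), v = a₁ • e + a₂ • f + a₃ • b + v' ∧ polar Q e v' = 0 ∧
      polar Q f v' = 0 ∧ polar Q b v' = 0 := by
  have he := h.left
  have hf := h.right
  have h1 : polar Q e e = 0 := polar_self_of_sing he
  have h2' : polar Q f f = 0 := polar_self_of_sing hf
  have h3 : polar Q e f = 1 := h.pair
  have h4 : polar Q f e = 1 := h.symm.pair
  have h5 : polar Q b e = 0 := by rw [polar_comm, heb]
  have h6 : polar Q b f = 0 := by rw [polar_comm, hfb]
  have h7 : polar Q b b = 2 * Q b := by rw [polar_self, two_smul, two_mul]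
  refine ⟨polar Q f v, polar Q e v, polar Q b v / (2 * Q b),
    v - (polar Q f v • e + polar Q e v • f + (polar Q b v / (2 * Q b)) • b), by abel, ?_, ?_, ?_⟩
  · simp only [polar_sub_right, polar_add_right, polar_smul_right, h1, h3, heb, smul_eq_mul]
    ring
  · simp only [polar_sub_right, polar_add_right, polar_smul_right, h2', h4, hfb, smul_eq_mul]
    ring
  · simp only [polar_sub_right, polar_add_right, polar_smul_right, h5, h6, h7, smul_eq_mul]
    field_simp
    ring

theorem wl_sq (h2 : (2 : F) ≠ 0) (hb : Q b ≠ 0) : wl Q e f b h heb hfb * wl Q e f b h heb hfb = 1 := by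
  ext v
  obtain ⟨a₁, a₂, a₃, v', rfl, hv1, hv2, hv3⟩ := exists_dec h heb hfb h2 hb v
  show wl Q e f b h heb hfb (wl Q e f b h heb hfb _) = _
  simp only [map_add, map_smul, map_neg, wl_e h heb hfb hb, wl_f h heb hfb hb, wl_b h heb hfb hb,
    wl_perp h heb hfb hv1 hv2 hv3]
  show _ = a₁ • e + a₂ • f + a₃ • b + v'
  match_scalars <;> field_simp

theorem mem_span3 {v : V} (hv : v ∈ Submodule.span F {e, f, b}) :
    ∃ a₁ a₂ a₃ : F, v = a₁ • e + a₂ • f + a₃ • b := by
  rw [Submodule.mem_span_triple] at hv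
  obtain ⟨a₁, a₂, a₃, hv⟩ := hv
  exact ⟨a₁, a₂, a₃, hv.symm⟩

end three

/-- the lift of a product -/
theorem gam_mul_apply (M L : Gam Q) (v : V) : (M * L).1 v = M.1 (L.1 v) := rfl

theorem gam_pow_apply {L : Gam Q} {Y : V ≃ₗ[F] V} (hY : ∀ v, L.1 v = Y v) (n : ℕ) (v : V) :
    (L ^ n).1 v = (Y ^ n) v := by
  induction n generalizing v with
  | zero => rfl
  | succ n ih =>
    rw [pow_succ, pow_succ, gam_mul_apply, hY, ih]
    rfl

/-- **Box B3**: `p` odd, the `p`-element acts on the nondegenerate 3-space `⟨e, f, b⟩` as the Siegel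
element of `(e, b)`, the other members are scalars on this space. -/
theorem box_B3 [Finite F] [FiniteDimensional F V] [Finite ι] [Finite G] [Nonempty Ω] [CharP F p]
    (hC : CV Q Ω N ρ p x M X c r) (hp2 : p ≠ 2) (hinj : Function.Injective r)
    (h7 : 7 ≤ Module.finrank F V) (i₀ : ι) (hi₀ : r i₀ = p) (hXO : X i₀ ∈ O Q) (hXp : X i₀ ^ p = 1)
    {e f b : V} (h : Hyp Q e f) (heb : polar Q e b = 0) (hfb : polar Q f b = 0) (hb : Q b ≠ 0)
    (hsc : ∀ i, i ≠ i₀ → ∃ a : F, ∀ v ∈ Submodule.span F {e, f, b}, X i v = a • v)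
    (hu : ∀ v ∈ Submodule.span F {e, f, b}, X i₀ v = siegel Q e b h.left heb v) : False := by
  classical
  have hpp : p.Prime := hi₀ ▸ hC.prime i₀
  have hodd : Odd p := hpp.odd_of_ne_two hp2
  have h2 : (2 : F) ≠ 0 := by
    intro h0
    have h1 : ((2 : ℕ) : F) = 0 := by exact_mod_cast h0
    rw [CharP.cast_eq_zero_iff F p] at h1
    exact hp2 ((Nat.prime_dvd_prime_iff_eq hpp Nat.prime_two).1 h1)
  set D := Submodule.span F {e, f, b} with hD
  have heD : e ∈ D := Submodule.subset_span (by simp)
  have hfD : f ∈ D := Submodule.subset_span (by simp)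
  have hbD : b ∈ D := Submodule.subset_span (by simp)
  set w := wl Q e f b h heb hfb with hw
  have hwE : w ∈ E Q := wl_mem h heb hfb
  have hwO : w ∈ O Q := E_le_O hwE
  have hw2 : w * w = 1 := wl_sq h heb hfb h2 hb
  have hwe := wl_e h heb hfb hb
  have hwf := wl_f h heb hfb hb
  have hwb := wl_b h heb hfb hb
  have hwp : ∀ v, polar Q e v = 0 → polar Q f v = 0 → polar Q b v = 0 → w v = v :=
    fun v h1 h2 h3 => wl_perp h heb hfb h1 h2 h3
  -- `w` preserves `D`
  have hwD : ∀ v ∈ D, w v ∈ D := by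
    intro v hv
    obtain ⟨a₁, a₂, a₃, rfl⟩ := mem_span3 hv
    rw [map_add, map_add, map_smul, map_smul, map_smul, hwe, hwf, hwb]
    exact D.add_mem (D.add_mem (D.smul_mem _ (D.neg_mem (D.smul_mem _ hfD)))
      (D.smul_mem _ (D.neg_mem (D.smul_mem _ heD)))) (D.smul_mem _ (D.neg_mem hbD))
  have hsD : ∀ v ∈ D, siegel Q e b h.left heb v ∈ D := by
    intro v hv
    rw [siegel_apply]
    exact D.sub_mem (D.sub_mem (D.add_mem hv (D.smul_mem _ hbD)) (D.smul_mem _ heD))
      (D.smul_mem _ heD)
  have hww : ∀ v, w (w v) = v := fun v => congrArg (fun g : V ≃ₗ[F] V => g v) hw2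
  set u := X i₀ with hudef
  have hpu : ∀ a b, polar Q (u a) (u b) = polar Q a b := by
    intro a b
    rw [polar, polar, ← map_add, hXO, hXO, hXO]
  have huD : ∀ v ∈ D, u v ∈ D := fun v hv => by rw [hu v hv]; exact hsD v hv
  -- `u` is onto on `D`
  have huD' : ∀ v ∈ D, ∃ v' ∈ D, u v' = v := by
    intro v hv
    refine ⟨(siegel Q e (-b) h.left (by rw [polar_neg_right, heb, neg_zero])) v, ?_, ?_⟩
    · rw [siegel_apply]
      exact D.sub_mem (D.sub_mem (D.add_mem hv (D.smul_mem _ (D.neg_mem hbD))) (D.smul_mem _ heD))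
        (D.smul_mem _ heD)
    · rw [hu _ (by
        rw [siegel_apply]
        exact D.sub_mem (D.sub_mem (D.add_mem hv (D.smul_mem _ (D.neg_mem hbD)))
          (D.smul_mem _ heD)) (D.smul_mem _ heD))]
      have h1 := siegelLin_comp (w := b) (w' := -b) h.left heb (by rw [polar_neg_right, heb, neg_zero]) v
      rw [add_neg_cancel] at h1
      refine h1.trans ?_
      rw [siegelLin_apply]
      simp
  have hup : ∀ v, (∀ d ∈ D, polar Q d v = 0) → ∀ d ∈ D, polar Q d (u v) = 0 := by
    intro v hv d hd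
    obtain ⟨d', hd', rfl⟩ := huD' d hd
    rw [hpu]
    exact hv d' hd'
  -- the word
  set T : V ≃ₗ[F] V := u * (w * u * w) * u with hT
  have hTD : ∀ v ∈ D, T v = w v := by
    intro v hv
    have hse : ∀ v, siegel Q e b h.left heb v = siegelLin Q e b v := fun v => rfl
    have h1 : ∀ v ∈ D, w (u (w v)) = siegelLin Q f ((Q b)⁻¹ • b) v := by
      intro v hv
      rw [hu _ (hwD v hv)]
      have h3 : w * siegel Q e b h.left heb * w⁻¹ = siegel Q (w e) (w b)
          (by rw [hwO]; exact h.left) (by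
            rw [polar, ← map_add, hwO, hwO, hwO]; exact heb) :=
        siegel_conj hwO h.left heb _ _
      have h4 : w⁻¹ = w := inv_eq_of_mul_eq_one_left hw2
      rw [h4] at h3
      have h5 := congrArg (fun g : V ≃ₗ[F] V => g v) h3
      change w (siegel Q e b h.left heb (w v)) = _ at h5
      rw [h5, siegel_apply, siegelLin_apply]
      rw [show w e = _ from hwe, show w b = _ from hwb]
      simp only [polar_neg_left, polar_smul_left, QuadraticMap.map_neg, QuadraticMap.map_smul, smul_eq_mul]
      match_scalars <;> field_simp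
    show u (w (u (w (u v)))) = _
    rw [h1 _ (huD v hv), hu _ hv]
    have h6 : siegelLin Q f ((Q b)⁻¹ • b) (siegel Q e b h.left heb v) ∈ D := by
      rw [← h1 _ (hsD v hv)]
      exact hwD _ (huD _ (hwD _ (hsD v hv)))
    rw [hu _ h6]
    rfl
  have hTDk : ∀ v ∈ D, ∀ k : ℕ, (T ^ (2 * k)) v = v := by
    intro v hv k
    induction k with
    | zero => rfl
    | succ k ih =>
      rw [show 2 * (k + 1) = 2 * k + 1 + 1 from rfl, pow_succ, pow_succ]
      show (T ^ (2 * k)) (T (T v)) = v
      rw [hTD v hv, hTD _ (hwD v hv), hww, ih]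
  have hTp : ∀ v, (∀ d ∈ D, polar Q d v = 0) → ∀ k : ℕ, (T ^ k) v = (u ^ (3 * k)) v := by
    have hwv : ∀ v, (∀ d ∈ D, polar Q d v = 0) → w v = v :=
      fun v hv => hwp v (hv e heD) (hv f hfD) (hv b hbD)
    intro v hv k
    induction k generalizing v with
    | zero => rfl
    | succ k ih =>
      rw [pow_succ, show 3 * (k + 1) = 3 * k + 3 by ring, pow_add]
      show (T ^ k) (u (w (u (w (u v))))) = (u ^ (3 * k)) ((u ^ 3) v)
      have e1 := hup v hv
      have e2 := hup _ e1
      rw [hwv _ e1, hwv _ e2, ih _ (hup _ e2)]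
      rfl
  have hTpow : T ^ p = w := by
    ext v
    obtain ⟨a₁, a₂, a₃, v', rfl, hv1, hv2, hv3⟩ := exists_dec h heb hfb h2 hb v
    have hv' : ∀ d ∈ D, polar Q d v' = 0 := by
      intro d hd
      obtain ⟨a, b', c', rfl⟩ := mem_span3 hd
      rw [polar_add_left, polar_add_left, polar_smul_left, polar_smul_left, polar_smul_left,
        hv1, hv2, hv3]
      simp
    have hd : a₁ • e + a₂ • f + a₃ • b ∈ D :=
      D.add_mem (D.add_mem (D.smul_mem _ heD) (D.smul_mem _ hfD)) (D.smul_mem _ hbD)
    generalize a₁ • e + a₂ • f + a₃ • b = dd at hd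
    rw [map_add, map_add, hTp v' hv' p, mul_comm 3 p, pow_mul, hXp, one_pow, hwp v' hv1 hv2 hv3]
    congr 1
    obtain ⟨k, hk⟩ := hodd
    rw [hk, pow_succ]
    show (T ^ (2 * k)) (T _) = _
    rw [hTD _ hd, hTDk _ (hwD _ hd)]
  -- the new element
  set g : G := ρ ⟨w, hwE⟩ with hg
  have hgl : Lf ρ g (tg Q ⟨w, hwE⟩) := Lf.tg _
  have hcw : ∀ j, j ≠ i₀ → w * X j = X j * w := by
    intro j hj
    obtain ⟨a, ha⟩ := hsc j hj
    ext v
    obtain ⟨a₁, a₂, a₃, v', rfl, hv1, hv2, hv3⟩ := exists_dec h heb hfb h2 hb v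
    have hd : a₁ • e + a₂ • f + a₃ • b ∈ D :=
      D.add_mem (D.add_mem (D.smul_mem _ heD) (D.smul_mem _ hfD)) (D.smul_mem _ hbD)
    generalize a₁ • e + a₂ • f + a₃ • b = dd at hd
    have ha0 : a ≠ 0 := by
      rintro rfl
      have h1 := ha e heD
      rw [zero_smul, LinearEquiv.map_eq_zero_iff] at h1
      have h3 := h.pair
      rw [h1, polar_zero_left] at h3
      exact zero_ne_one h3
    have hX' : ∀ d ∈ D, polar Q d (X j v') = 0 := by
      intro d hd
      have h3 : polar Q d v' = 0 := by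
        obtain ⟨a, b', c', rfl⟩ := mem_span3 hd
        rw [polar_add_left, polar_add_left, polar_smul_left, polar_smul_left, polar_smul_left,
          hv1, hv2, hv3]
        simp
      have h4 := hC.polar_X j d v'
      rw [ha d hd, polar_smul_left, h3, mul_zero, smul_eq_mul] at h4
      exact (mul_eq_zero.1 h4).resolve_left ha0
    show w (X j (dd + v')) = X j (w (dd + v'))
    rw [map_add, map_add, map_add, map_add, ha _ hd, ha _ (hwD _ hd), map_smul, hwp v' hv1 hv2 hv3,
      hwp _ (hX' e heD) (hX' f hfD) (hX' b hbD)]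
  have hgc : ∀ j, j ≠ i₀ → g * x j = x j * g := fun j hj =>
    comm_of_lin (hC.lf j) (hC.lin j) hwE (hcw j hj)
  have hginv : g⁻¹ = g := by
    rw [inv_eq_iff_mul_eq_one, hg, ← map_mul]
    have : (⟨w, hwE⟩ * ⟨w, hwE⟩ : ↥(E Q)) = 1 := Subtype.ext hw2
    rw [this, map_one]
  set y : G := (x i₀ * (g * x i₀ * g⁻¹) * x i₀) ^ p with hy
  set M' : Gam Q := (M i₀ * (tg Q ⟨w, hwE⟩ * M i₀ * tg Q ⟨w, hwE⟩) * M i₀) ^ p with hM'
  have hyl : Lf ρ y M' := by
    rw [hy, hginv]
    exact (((hC.lf i₀).mul ((hgl.mul (hC.lf i₀)).mul hgl)).mul (hC.lf i₀)).pow p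
  have hylin : ∀ v, M'.1 v = w v := by
    intro v
    rw [hM', gam_pow_apply (Y := T) _ p v, hTpow]
    intro v
    rw [gam_mul_apply, gam_mul_apply, gam_mul_apply, gam_mul_apply, hC.lin, hC.lin, hC.lin]
    rfl
  have hycl : y ∈ Subgroup.closure {z | ∃ g : G, (∀ j, j ≠ i₀ → g * x j = x j * g) ∧
      z = g * x i₀ * g⁻¹} := by
    have hx0 : x i₀ ∈ Subgroup.closure {z | ∃ g : G, (∀ j, j ≠ i₀ → g * x j = x j * g) ∧
        z = g * x i₀ * g⁻¹} := Subgroup.subset_closure ⟨1, by simp, by simp⟩
    exact Subgroup.pow_mem _ (Subgroup.mul_mem _ (Subgroup.mul_mem _ hx0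
      (Subgroup.subset_closure ⟨g, hgc, rfl⟩)) hx0) _
  -- the vector `d = e - f / Q b` fixed by `w`
  set k : V := e + (Q b)⁻¹ • f with hk
  have hbne : b ≠ 0 := by
    rintro rfl
    exact hb (map_zero Q)
  have hy1 : y ≠ 1 := by
    intro h1
    rw [hyl.eq_one_iff hC.good hC.env hC.rep] at h1
    obtain ⟨a, ha, h1⟩ := h1
    have h3 := h1 b
    rw [hylin, show w b = _ from hwb] at h3
    have h4 := h1 (e - (Q b)⁻¹ • f)
    rw [hylin, map_sub, map_smul, show w e = _ from hwe, show w f = _ from hwf] at h4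
    have h5 : (a + 1) • b = 0 := by rw [add_smul, ← h3]; simp
    have h6 : a = -1 := eq_neg_of_add_eq_zero_left ((smul_eq_zero.1 h5).resolve_right hbne)
    have h7 := congrArg (fun v => polar Q f v) h4
    simp only [polar_sub_right, polar_smul_right, polar_neg_right, polar_self_of_sing h.right,
      h.symm.pair, smul_eq_mul, h6, mul_zero, mul_one, neg_zero, zero_sub, sub_zero, mul_neg, neg_neg,
      inv_mul_cancel₀ hb] at h7
    apply h2
    linear_combination h7
  have hys : y ^ 2 = 1 := by
    have h1 : Lf ρ (y ^ 2) (M' ^ 2) := hyl.pow 2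
    rw [h1.eq_one_iff hC.good hC.env hC.rep]
    refine ⟨1, one_ne_zero, fun v => ?_⟩
    rw [gam_pow_apply hylin, one_smul, pow_two]
    exact hww v
  have hC' := cv_update hC i₀ Nat.prime_two hys hy1 hycl hyl hylin hwO hcw
  -- the subspace
  have hdet : 4 * Q b * Q k - polar Q b k * polar Q b k ≠ 0 := by
    have h1 : Q k = (Q b)⁻¹ := by
      rw [hk]
      have h3 : Q (e + (Q b)⁻¹ • f) = Q e + Q ((Q b)⁻¹ • f) + polar Q e ((Q b)⁻¹ • f) := by
        rw [polar]; ring
      rw [h3, h.left, QuadraticMap.map_smul, h.right, polar_smul_right, h.pair]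
      simp
    have h3 : polar Q b k = 0 := by
      rw [hk, polar_add_right, polar_smul_right, polar_comm Q b e, heb, polar_comm Q b f, hfb]
      simp
    rw [h1, h3, mul_assoc, mul_inv_cancel₀ hb]
    intro h4
    apply h2
    have h5 : (2 : F) * 2 = 0 := by linear_combination h4
    exact (mul_self_eq_zero.1 h5)
  obtain ⟨α, β, hsp, hW1, hW2⟩ := Cfsg.Agent.H236.RC.split_of_det hdet
  set W : Submodule F V := Cfsg.Agent.GenOrth.Comp α β with hWdef
  have hWmem : ∀ v, v ∈ W ↔ polar Q b v = 0 ∧ polar Q k v = 0 := by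
    intro v
    rw [hWdef, Cfsg.Agent.GenOrth.mem_Comp]
    exact ⟨fun h => hW1 v h.1 h.2, fun h => hW2 v h.1 h.2⟩
  have hWnd : Nondeg (Q.comp W.subtype) := Cfsg.Agent.GenOrth.nondeg_restr hC.good.nondeg hsp
  have hWd : Module.finrank F W + 2 = Module.finrank F V := Cfsg.Agent.GenOrth.finrank_Comp hsp
  have hWG : Good (Q.comp W.subtype) :=
    Cfsg.Agent.LieClassical.OrthFinite.good_of_finite hWnd (by omega)
  have hWt : W ≠ ⊤ := by
    intro h
    rw [h, finrank_top] at hWd
    omega
  have hkD : k ∈ D := D.add_mem heD (D.smul_mem _ hfD)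
  set d : V := e - (Q b)⁻¹ • f with hd
  have hdD : d ∈ D := D.sub_mem heD (D.smul_mem _ hfD)
  have hdW : d ∈ W := by
    rw [hWmem, hd, hk]
    simp only [polar_sub_right, polar_add_left, polar_smul_right, polar_smul_left,
      polar_comm Q b e, heb, polar_comm Q b f, hfb, polar_self_of_sing h.left, h.pair, h.symm.pair,
      polar_self_of_sing h.right, smul_eq_mul]
    constructor <;> ring
  have hd0 : d ≠ 0 := by
    intro h0
    have h1 := congrArg (fun v => polar Q f v) h0
    simp only [hd, polar_sub_right, polar_smul_right, polar_zero_right, h.symm.pair,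
      polar_self_of_sing h.right, smul_eq_mul] at h1
    simp at h1
  have hwW : ∀ v ∈ W, w v = v := by
    intro v hv
    obtain ⟨h3, h4⟩ := (hWmem v).1 hv
    obtain ⟨a₁, a₂, a₃, v', rfl, hv1, hv2, hv3⟩ := exists_dec h heb hfb h2 hb v
    have e3 : polar Q b b = 2 * Q b := by rw [polar_self, two_smul, two_mul]
    have h5 : a₃ = 0 := by
      simp only [polar_add_right, polar_smul_right, polar_comm Q b e, heb, polar_comm Q b f, hfb,
        hv3, e3, smul_eq_mul] at h3
      have : a₃ * (2 * Q b) = 0 := by linear_combination h3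
      exact (mul_eq_zero.1 this).resolve_right (mul_ne_zero h2 hb)
    have h6 : a₂ = -((Q b)⁻¹ * a₁) := by
      simp only [hk, polar_add_right, polar_add_left, polar_smul_right, polar_smul_left, heb, hfb,
        hv1, hv2, h.pair, h.symm.pair, polar_self_of_sing h.left, polar_self_of_sing h.right,
        smul_eq_mul] at h4
      linear_combination h4
    subst h5 h6
    rw [map_add, map_add, map_add, map_smul, map_smul, map_smul, show w e = _ from hwe,
      show w f = _ from hwf, hwp v' hv1 hv2 hv3]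
    match_scalars <;> field_simp
  -- scalars on `W`
  have hns : ∀ j, j ≠ i₀ → ∀ a : F, ¬ ∀ v ∈ W, X j v = a • v := by
    intro j hj a ha
    obtain ⟨a', ha'⟩ := hsc j hj
    have h1 : a = a' := by
      have h3 := ha d hdW
      rw [ha' d hdD] at h3
      have h4 : (a' - a) • d = 0 := by rw [sub_smul, h3, sub_self]
      exact (sub_eq_zero.1 ((smul_eq_zero.1 h4).resolve_right hd0)).symm
    subst h1
    apply hC.not_scal j a
    intro v
    obtain ⟨a₁, a₂, a₃, v', rfl, hv1, hv2, hv3⟩ := exists_dec h heb hfb h2 hb v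
    have hdd : a₁ • e + a₂ • f + a₃ • b ∈ D :=
      D.add_mem (D.add_mem (D.smul_mem _ heD) (D.smul_mem _ hfD)) (D.smul_mem _ hbD)
    have hv'W : v' ∈ W := by
      rw [hWmem, hk, polar_add_left, polar_smul_left, hv1, hv2, hv3]
      simp
    generalize a₁ • e + a₂ • f + a₃ • b = dd at hdd
    rw [map_add, ha' _ hdd, ha _ hv'W, smul_add]
  obtain ⟨j₀, hj₀⟩ := Cov.two hC.env hC.cov hC.ne i₀
  have hXu : ∀ i, (∃ a : F, ∀ v ∈ W, Function.update X i₀ w i v = a • v) → i = i₀ := by
    intro i ⟨a, ha⟩
    by_contra hi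
    rw [Function.update_of_ne hi] at ha
    exact hns i hi a ha
  refine hC'.box_A W hWG hWt ?_ ⟨j₀, ?_⟩ ?_ ?_ ?_
  · intro i v hv
    by_cases hi : i = i₀
    · subst hi
      rw [Function.update_self, hwW v hv]
      exact hv
    · rw [Function.update_of_ne hi]
      obtain ⟨a, ha⟩ := hsc i hi
      have ha0 : a ≠ 0 := by
        rintro rfl
        have h1 := ha e heD
        rw [zero_smul, LinearEquiv.map_eq_zero_iff] at h1
        have h3 := h.pair
        rw [h1, polar_zero_left] at h3
        exact zero_ne_one h3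
      have h5 : ∀ d ∈ D, polar Q d v = 0 → polar Q d (X i v) = 0 := by
        intro d hd h3
        have h4 := hC.polar_X i d v
        rw [ha d hd, polar_smul_left, h3, mul_zero, smul_eq_mul] at h4
        exact (mul_eq_zero.1 h4).resolve_left ha0
      rw [hWmem] at hv ⊢
      exact ⟨h5 b hbD hv.1, h5 k hkD hv.2⟩
  · intro a
    rw [Function.update_of_ne hj₀]
    exact hns j₀ hj₀ a
  · intro i hi j hj hij
    have hi' : i ≠ i₀ := by
      rintro rfl
      exact hi 1 fun v hv => by rw [Function.update_self, hwW v hv, one_smul]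
    have hj' : j ≠ i₀ := by
      rintro rfl
      exact hj 1 fun v hv => by rw [Function.update_self, hwW v hv, one_smul]
    rw [Function.update_of_ne hi', Function.update_of_ne hj'] at hij
    exact hinj hij
  · intro i hi
    rw [hXu i hi, Function.update_self]
    exact fun h => hp2 h.symm
  · left
    rintro ⟨h1, -, -⟩
    apply h2
    have := Fintype.ofFinite F
    rw [Nat.card_eq_fintype_card] at h1
    have h3 := FiniteField.cast_card_eq_zero F
    rw [h1] at h3
    exact_mod_cast h3

end Cfsg.Agent.H93.RC
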