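import Cfsg.Agent.H93.RC.BoxB3
import Cfsg.Agent.H205.RC.Uni
import Cfsg.Agent.H205.RC.Norm
import Cfsg.Agent.H220.RC.OddEig
import Cfsg.Agent.H236.RC.FA
import Cfsg.Agent.H297.RC.LR

/-!
# S3510, row F, odd dimension

`false_odd` : no cover by commuting elements of different prime orders whose members have lifts to
semisimilitudes, given the long root rule `LR`.
-/

set_option autoImplicit false
open Cfsg

namespace Cfsg.Agent.H93.RC

open QuadraticMap MulAction
open Cfsg.Agent.LieClassical.OrthCore Cfsg.Agent.LieClassical.OrthTrans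
open Cfsg.Agent.LieClassical.OrthSimple Cfsg.Agent.ClassicalGeometry.OrthSemi
open Cfsg.Agent.ClassicalGeometry.OrthAut1 Cfsg.Agent.H106.RC Cfsg.Agent.H138.RC

section lifts

variable {F V G : Type*} [Field F] [AddCommGroup V] [Module F V] [Group G] {Q : QuadraticForm F V}
  {ρ : ↥(E Q) →* G}

/-- an isometry as a semisimilitude -/
def gamO (T : V ≃ₗ[F] V) (hT : T ∈ O Q) : Gam Q :=
  ⟨T.toEquiv, RingEquiv.refl F, 1, one_ne_zero, fun u v => map_add T u v, fun a v => map_smul T a v,
    fun v => by rw [one_mul]; exact hT v⟩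

theorem gamO_apply (T : V ≃ₗ[F] V) (hT : T ∈ O Q) (v : V) : (gamO T hT).1 v = T v := rfl

/-- a scalar multiple of a lift is a lift -/
theorem lf_smul {y : G} {M L : Gam Q} (h : Lf ρ y M) {a : F} (hML : ∀ v, M.1 v = a • L.1 v) :
    Lf ρ y L := by
  intro t
  rw [h t]
  congr 1
  apply Subtype.ext
  rw [coe_conjE, coe_conjE]
  ext v
  obtain ⟨v, rfl⟩ := M.1.surjective v
  rw [conjLin_apply', hML, hML, map_smul, conjLin_apply']

/-- two elements with the same lift are equal -/
theorem eq_of_lf (hG : Good Q) {N : Subgroup G} {Ω : Type*} [MulAction G Ω] (hE : Env G Ω N)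
    (hρ : Rep Q N ρ) {y z : G} {M L : Gam Q} (h : Lf ρ y M) (h' : Lf ρ z L) (hML : ∀ v, M.1 v = L.1 v) :
    y = z := by
  have h1 := h.mul h'.inv
  have h2 : y * z⁻¹ = 1 := by
    rw [h1.eq_one_iff hG hE hρ]
    refine ⟨1, one_ne_zero, fun v => ?_⟩
    have h3 : M = L := Subtype.ext (Equiv.ext hML)
    rw [h3, mul_inv_cancel, one_smul]
    rfl
  exact mul_inv_eq_one.1 h2

end lifts

variable {F V G Ω : Type} [Field F] [Finite F] [AddCommGroup V] [Module F V] [FiniteDimensional F V]
  {Q : QuadraticForm F V} [Group G] [Finite G] [MulAction G Ω] [Nonempty Ω] {N : Subgroup G}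
  {ρ : ↥(E Q) →* G}

theorem card_ne_two (h2 : (2 : F) ≠ 0) : Nat.card F ≠ 2 := by
  intro h1
  apply h2
  have := Fintype.ofFinite F
  rw [Nat.card_eq_fintype_card] at h1
  have h3 := FiniteField.cast_card_eq_zero F
  rw [h1] at h3
  exact_mod_cast h3

/-- the vector orthogonal complement of a nonsingular vector -/
theorem good_perp (hG : Good Q) (h2 : (2 : F) ≠ 0) (h7 : 7 ≤ Module.finrank F V) {v : V} (hv : Q v ≠ 0) :
    Good (Q.comp (LinearMap.ker (polarBilin Q v)).subtype) ∧ LinearMap.ker (polarBilin Q v) ≠ ⊤ ∧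
      ∀ x : V, ∃ a : F, x - a • v ∈ LinearMap.ker (polarBilin Q v) := by
  have hvv : polar Q v v ≠ 0 := by
    rw [polar_self, two_smul, ← two_mul]
    exact mul_ne_zero h2 hv
  have hdec : ∀ x : V, ∃ a : F, x - a • v ∈ LinearMap.ker (polarBilin Q v) := by
    intro x
    refine ⟨polar Q v x / polar Q v v, ?_⟩
    rw [LinearMap.mem_ker]
    show polar Q v (x - _) = 0
    rw [polar_sub_right, polar_smul_right, smul_eq_mul, div_mul_cancel₀ _ hvv, sub_self]
  refine ⟨Cfsg.Agent.LieClassical.OrthFinite.good_of_finite ?_ ?_, ?_, hdec⟩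
  · intro x hx
    apply Subtype.ext
    apply hG.nondeg
    intro y
    obtain ⟨a, ha⟩ := hdec y
    have h1 := hx ⟨_, ha⟩
    have h3 : polar Q (x : V) (y - a • v) = 0 := h1
    have h4 : polar Q (x : V) v = 0 := by
      rw [polar_comm]
      exact x.2
    rw [polar_sub_right, polar_smul_right, h4, smul_zero, sub_zero] at h3
    exact h3
  · have h1 := LinearMap.finrank_range_add_finrank_ker (polarBilin Q v)
    have h3 : Module.finrank F (LinearMap.range (polarBilin Q v)) ≤ 1 := by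
      refine le_trans (Submodule.finrank_le _) ?_
      rw [Module.finrank_self]
    omega
  · intro h
    apply hvv
    have h1 : v ∈ LinearMap.ker (polarBilin Q v) := by rw [h]; trivial
    exact h1

/-- **Odd dimension.** -/
theorem false_odd (hG : Good Q) (hodd : Odd (Module.finrank F V)) (h7 : 7 ≤ Module.finrank F V)
    (hE : Env G Ω N) (hρ : Rep Q N ρ) {p : ℕ} [CharP F p] (hp2 : p ≠ 2) (hLR : LR Q Ω ρ p)
    (hIH : IH (Nat.card (P Q))) {ι : Type} [Finite ι] {x : ι → G} {M : ι → Gam Q} {r : ι → ℕ}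
    (hl : ∀ i, Lf ρ (x i) (M i)) (hx : PF x r) (hcov : Cov Ω x) : False := by
  classical
  by_cases hnl : ∃ i, ¬ IsLin (M i)
  · exact Cfsg.Agent.H236.RC.box_FA' hG h7 hE hρ hl hx hcov hIH hnl
  push Not at hnl
  have hpp : p.Prime := CharP.char_is_prime F p
  have h2 : (2 : F) ≠ 0 := by
    intro h0
    have h1 : ((2 : ℕ) : F) = 0 := by exact_mod_cast h0
    rw [CharP.cast_eq_zero_iff F p] at h1
    exact hp2 ((Nat.prime_dvd_prime_iff_eq hpp Nat.prime_two).1 h1)
  have hcard : Nat.card F ≠ 2 := card_ne_two h2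
  -- isometries
  have hT : ∀ i, ∃ (T : V ≃ₗ[F] V) (a : F), T ∈ O Q ∧ T ^ (r i) = 1 ∧ a ≠ 0 ∧ ∀ v, (M i).1 v = a • T v :=
    fun i => Cfsg.Agent.H205.RC.box_norm hG hp2 hodd (M i) (hnl i) (hx.prime i)
      ((hl i).pow_scal hG hρ (hx.pow i))
  choose T a hTO hTr ha hTM using hT
  let M' : ι → Gam Q := fun i => gamO (T i) (hTO i)
  have hl' : ∀ i, Lf ρ (x i) (M' i) := fun i => lf_smul (hl i) (hTM i)
  have hcT : ∀ i j, T i * T j = T j * T i := by
    intro i j
    obtain ⟨b, hb, h1⟩ := (hl' i).comm hG hρ (hl' j) (hx.comm i j)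
    ext v
    exact Cfsg.Agent.H205.RC.comm_exact hG.nondeg h2 hodd (M := M' i) (hTO j) (hx.prime j) (hTr j) h1 v
  have hcardN : Nat.card (P Q) = Nat.card N := by
    obtain ⟨e⟩ := Cfsg.Agent.H236.RC.exists_equiv_P hρ
    exact (Nat.card_congr e.toEquiv).symm
  have hC : CV Q Ω N ρ p x M' T (fun _ => 1) r := by
    refine ⟨hG, hE, hρ, hLR, hcardN ▸ hIH, hx.prime, hx.pow, hx.ne, hx.comm, hcov, hl', fun i v => rfl,
      fun i v => ?_, hcT⟩
    rw [one_mul]
    exact hTO i v
  have hns : ∀ i, T i ≠ 1 ∧ ∃ v, T i v ≠ -v := by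
    intro i
    constructor
    · intro h1
      exact hC.not_scal i 1 fun v => by rw [h1, one_smul]; rfl
    · by_contra h1
      push Not at h1
      exact hC.not_scal i (-1) fun v => by rw [h1, neg_one_smul]
  by_cases hp : ∃ i₀, r i₀ = p
  · -- a unipotent member
    obtain ⟨i₀, hi₀⟩ := hp
    obtain ⟨j₀, hj₀⟩ := Cov.two hE hcov hx.ne i₀
    have : Nonempty {i : ι // i ≠ i₀} := ⟨⟨j₀, hj₀⟩⟩
    have hup : T i₀ ^ p = 1 := by rw [← hi₀]; exact hTr i₀
    rcases Cfsg.Agent.H205.RC.box_uni hG hp2 h7 hodd (T i₀) (hTO i₀) hup (hns i₀).1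
        (fun i : {i : ι // i ≠ i₀} => T i) (fun i : {i : ι // i ≠ i₀} => r i) (fun i => hTO i)
        (fun i => hx.prime i) (fun i h => i.2 (hx.inj (h.trans hi₀.symm))) (fun i => hTr i)
        (fun i j => hcT i j) (fun i => hcT i i₀) (fun i => hns i) with
      ⟨W, hWG, hWt, hW1, hW2, v, hvW, hv⟩ | ⟨e, f, b, h, heb, hfb, hb, hsc, hu⟩ |
      ⟨e, w, he, hw, hew, he0, hind, hu, hL⟩
    · have hinv : ∀ i, ∀ v ∈ W, T i v ∈ W := by
        intro i z hz
        by_cases hi : i = i₀
        · subst hi; exact hW2 z hz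
        · exact hW1 ⟨i, hi⟩ z hz
      have hi₀n : ∀ a : F, ¬ ∀ v ∈ W, T i₀ v = a • v := by
        intro a h1
        have h3 : ∀ k : ℕ, ∀ v ∈ W, (T i₀ ^ k) v = a ^ k • v := by
          intro k
          induction k with
          | zero => intro v _; rw [pow_zero, pow_zero, one_smul]; rfl
          | succ k ih =>
            intro v hv
            rw [pow_succ, pow_succ]
            show (T i₀ ^ k) (T i₀ v) = _
            rw [h1 v hv, map_smul, ih v hv, smul_smul, mul_comm]
        have hv0 : v ≠ 0 := by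
          rintro rfl
          exact hv (map_zero _)
        have h4 := h3 p v hvW
        rw [hup] at h4
        have h5 : (a ^ p - 1) • v = 0 := by
          rw [sub_smul, one_smul, ← h4]
          exact sub_self v
        have h6 : a ^ p = 1 := sub_eq_zero.1 ((smul_eq_zero.1 h5).resolve_right hv0)
        have hfr : Fact p.Prime := ⟨hpp⟩
        have h7 : a = 1 := by
          have h8 : (a - 1) ^ p = 0 := by rw [sub_pow_char, one_pow, h6, sub_self]
          exact sub_eq_zero.1 (pow_eq_zero_iff hpp.ne_zero |>.1 h8)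
        apply hv
        rw [h1 v hvW, h7, one_smul]
      refine hC.box_A W hWG hWt hinv ⟨i₀, hi₀n⟩ (hx.inj.injOn) ?_ (Or.inl fun h => hcard h.1)
      rintro i ⟨a, ha⟩ hrp
      have : i = i₀ := hx.inj (hrp.trans hi₀.symm)
      subst this
      exact hi₀n a ha
    · refine box_B3 hC hp2 hx.inj h7 i₀ hi₀ (hTO i₀) hup h heb hfb hb ?_ hu
      intro i hi
      rcases hsc ⟨i, hi⟩ with h1 | h1
      · exact ⟨1, fun v hv => by rw [one_smul]; exact h1 v hv⟩
      · exact ⟨-1, fun v hv => by rw [neg_one_smul]; exact h1 v hv⟩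
    · have hxe : x i₀ = ρ (AutOrth.SemiSim.sg Q e w he hew) := by
        refine eq_of_lf hG hE hρ (hl' i₀) (Lf.tg _) fun v => ?_
        rw [tg_apply]
        show T i₀ v = _
        rw [hu]
        rfl
      refine hC.no_lr {i | i ≠ i₀} (fun i hi h => hi (hx.inj (h.trans hi₀.symm))) he hw hew he0 hind
        (fun i hi => hL ⟨i, hi⟩) fun ω => ?_
      obtain ⟨i, hi⟩ := hcov ω
      by_cases h0 : i = i₀
      · subst h0
        left
        rw [← hxe]
        exact hi
      · exact Or.inr ⟨i, h0, hi⟩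
  · -- no unipotent member
    push Not at hp
    obtain ⟨v, hv, hev⟩ := Cfsg.Agent.H220.RC.box_eig hG.nondeg hp2 hodd T r hTO hx.prime hp hTr hcT
    obtain ⟨hWG, hWt, hdec⟩ := good_perp hG h2 h7 hv
    have hpT : ∀ i a b, polar Q (T i a) (T i b) = polar Q a b := by
      intro i a b
      rw [polar, polar, ← map_add, hTO i, hTO i, hTO i]
    have hinv : ∀ i, ∀ w ∈ LinearMap.ker (polarBilin Q v), T i w ∈ LinearMap.ker (polarBilin Q v) := by
      intro i w hw
      have hw' : polar Q v w = 0 := hw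
      show polar Q v (T i w) = 0
      rcases hev i with h1 | h1
      · rw [← hw', ← hpT i v w, h1]
      · have h3 : v = T i (-v) := by rw [map_neg, h1, neg_neg]
        rw [h3, hpT, polar_neg_left, hw', neg_zero]
    -- a member scalar on `v^⊥` is an involution
    have hinvol : ∀ i, (∃ a : F, ∀ w ∈ LinearMap.ker (polarBilin Q v), T i w = a • w) → r i = 2 := by
      rintro i ⟨a, ha⟩
      have hw0 : ∃ w ∈ LinearMap.ker (polarBilin Q v), Q w ≠ 0 := by
        by_contra hno
        push Not at hno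
        obtain ⟨x1, hx1, -⟩ := hWG.sing
        obtain ⟨y1, hy1⟩ := hWG.nondeg.exists_polar_ne hx1
        apply hy1
        show polar Q (x1 : V) (y1 : V) = 0
        rw [polar, hno _ x1.2, hno _ y1.2, hno _ (Submodule.add_mem _ x1.2 y1.2)]
        simp
      obtain ⟨w, hw, hQw⟩ := hw0
      have ha2 : a * a = 1 := by
        have h1 := hTO i w
        rw [ha w hw, QuadraticMap.map_smul, smul_eq_mul] at h1
        exact mul_right_cancel₀ hQw (h1.trans (one_mul _).symm)
      have hsq : T i ^ 2 = 1 := by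
        ext z
        obtain ⟨b, hb⟩ := hdec z
        have h1 : z = (z - b • v) + b • v := by abel
        rw [h1, map_add, map_smul]
        show T i (T i (z - b • v)) + b • T i (T i v) = (z - b • v) + b • v
        have h3 : T i (T i v) = v := by
          rcases hev i with h | h
          · rw [h, h]
          · rw [h, map_neg, h, neg_neg]
        rw [h3, ha _ hb, map_smul, ha _ hb, smul_smul, ha2, one_smul]
      have h4 : orderOf (T i) ∣ 2 := orderOf_dvd_of_pow_eq_one hsq
      have h5 : orderOf (T i) = r i := orderOf_eq_prime (hp := ⟨hx.prime i⟩) (hTr i) (hns i).1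
      rw [h5] at h4
      exact (Nat.prime_dvd_prime_iff_eq (hx.prime i) Nat.prime_two).1 h4
    have hne : ∃ i, ∀ a : F, ¬ ∀ w ∈ LinearMap.ker (polarBilin Q v), T i w = a • w := by
      by_contra hno
      push Not at hno
      obtain ⟨ω⟩ := ‹Nonempty Ω›
      obtain ⟨i, -⟩ := hcov ω
      obtain ⟨j, hj⟩ := Cov.two hE hcov hx.ne i
      exact hj (hx.inj ((hinvol j (hno j)).trans (hinvol i (hno i)).symm))
    exact hC.box_A _ hWG hWt hinv hne hx.inj.injOn (fun i _ => hp i) (Or.inl fun h => hcard h.1)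

/-- the long root rule in the form of `CV` -/
theorem lr_all {F V G Ω : Type} [Field F] [Finite F] [AddCommGroup V] [Module F V] [FiniteDimensional F V]
    {Q : QuadraticForm F V} [Group G] [Finite G] [MulAction G Ω] [Nonempty Ω] {N : Subgroup G}
    {ρ : ↥(E Q) →* G} (hG : Good Q) (hE : Env G Ω N) (hρ : Rep Q N ρ) (p : ℕ) [CharP F p] :
    LR Q Ω ρ p := by
  intro κ _ y L s h1 h2 h3 h4 h5 h6 u w hu hw huw hu0 hind hL hcov
  exact Cfsg.Agent.H297.RC.box_LR hG hE hρ h1 h2 h3 h4 h5 h6 hu hw huw hu0 hind hL hcov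

theorem exists_pe {F : Type*} [Field F] {ι : Type} [Fintype ι] [DecidableEq ι]
    {Q : QuadraticForm F (ι → F)} {f : (ι → F) → F} (hG : Good Q) (h : ⇑Q = f) :
    Nonempty (Cfsg.POmega F f ≃* P Q) := by
  subst h
  exact ⟨AutOrth.Main.pe hG⟩

/-- **Row `PΩ_{2m+1}(q)`.** -/
theorem row_odd : Row (fun S _ => IsPOmegaOdd S) := by
  intro S _ _ hS hSn hP _ hIH
  obtain ⟨F, _, _, m, hm, hq, ⟨e⟩⟩ := hP
  apply rc_of_noCov hS hSn
  intro G _ _ Ω _ _ _ N hE eN ι _ x r hx hcov _
  classical
  obtain ⟨p, hp⟩ := CharP.exists F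
  have h2 : (2 : F) ≠ 0 := by
    intro h0
    have h1 : CharP F 2 := CharTwo.of_one_ne_zero_of_two_eq_zero one_ne_zero h0
    have h3 := FiniteField.even_card_of_char_two (F := F) (ringChar.eq F 2)
    exact (Nat.not_even_iff_odd.2 hq) (Nat.even_iff.2 h3)
  have hG : Good (Cfsg.Agent.LieClassical.OrthForms.oddForm m F) :=
    Cfsg.Agent.ClassicalGeometry.OrthSemiForms.good_odd (by omega) h2
  obtain ⟨f'⟩ := exists_pe hG (Cfsg.Agent.LieClassical.OrthForms.coe_oddForm m F)
  have f : S ≃* P (Cfsg.Agent.LieClassical.OrthForms.oddForm m F) := e.trans f'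
  obtain ⟨ρ, hρ⟩ := exists_rep eN f
  have hs := AutOrth.Final.surjective_odd (F := F) hm h2
  have hN := hE.norm
  choose M hl using fun i => exists_Lf hN hρ hs (x i)
  refine false_odd hG ?_ ?_ hE hρ (p := p) ?_ (lr_all hG hE hρ p) ?_ hl hx hcov
  · rw [Module.finrank_fintype_fun_eq_card]
    simp only [Fintype.card_sum, Fintype.card_unit, Fintype.card_fin]
    exact ⟨m, by ring⟩
  · rw [Module.finrank_fintype_fun_eq_card]
    simp only [Fintype.card_sum, Fintype.card_unit, Fintype.card_fin]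
    omega
  · rintro rfl
    apply h2
    exact_mod_cast CharP.cast_eq_zero F 2
  · rw [← Nat.card_congr f.toEquiv]
    exact hIH

end Cfsg.Agent.H93.RC
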